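import Groth.Agent.Dual.H345.AffProper
import Groth.Agent.Dual.H322.BcGlue
import Groth.Agent.Dual.H322.BcUniv
import Groth.Agent.Dual.H310.OpenBC
import Groth.Agent.PerfB.LpullOpens

/-!
# Flat base change for the right adjoint of `Rf_*`, `f` proper, `Y`, `Y'` Noetherian

* `isIso_bc_affine`: the affine case, for any `σ`;
* `isIso_bc_flat`: the general case, for any `σ : Rf_* ⋙ Lg^* ≅ Lg'^* ⋙ Rf'_*` on `D_QCoh` and `K ∈ D^+_QCoh(O_Y)`;
* `nonempty_flatBC`: the functor level statement `Lg'^* ∘ a ≅ a' ∘ Lg^*` on `D^+_QCoh(O_Y)`.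
-/

set_option autoImplicit false

universe u

open CategoryTheory CategoryTheory.Limits AlgebraicGeometry Pretriangulated

attribute [local instance] HasDerivedCategory.standard

namespace Groth.Agent.Dual.H345.FlatBC

open Groth.Agent.PerfB.BCFormal Groth.Agent.Ega1.ADualUniv
open Groth.Agent.Dual.H310.OpenBC (resQ bcNat isNoetherian_of_finiteType preservesQCoh liftIso)
open Groth.Agent.PerfA.Restrict (restrictD)

/-- A morphism in the derived category which is an isomorphism locally is one. -/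
lemma isIso_of_restrictD {X : Scheme.{u}} {K L : DCoh.D X} (φ : K ⟶ L)
    (h : ∀ x : X, ∃ (U : Scheme.{u}) (j : U ⟶ X) (_ : IsOpenImmersion j) (y : U), j y = x ∧
      IsIso ((restrictD j).map φ)) : IsIso φ := by
  rw [DerivedCategory.isIso_iff]
  intro i
  refine Groth.Agent.PerfA.Restrict.isIso_of_restrict _ fun x => ?_
  obtain ⟨U, j, hj, y, hy, hU⟩ := h x
  refine ⟨U, j, hj, y, hy, ?_⟩
  exact (NatIso.isIso_map_iff
    (Groth.Agent.PerfA.ExactD.mapHomology (Scheme.Modules.restrictFunctor j) i) φ).1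
    (inferInstanceAs (IsIso ((DerivedCategory.homologyFunctor _ i).map ((restrictD j).map φ))))

section Affine

variable {X Y X' Y' : Scheme.{u}} {f : X ⟶ Y} {g : Y' ⟶ Y} {f' : X' ⟶ Y'} {g' : X' ⟶ X}
variable [DCoh.HasRpush f] [DCoh.HasRpush f']
variable {hf : DCoh.RpushPreservesQCoh f} {hf' : DCoh.RpushPreservesQCoh f'}
variable [DCoh.HasLpull g] [DCoh.HasLpull g'] {hLg : Dual3.LpullPreservesQCoh g}
  {hLg' : Dual3.LpullPreservesQCoh g'}
variable {a : DCoh.DQCoh Y ⥤ DCoh.DQCoh X} {a' : DCoh.DQCoh Y' ⥤ DCoh.DQCoh X'}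

/-- The affine case, for any `σ`. -/
theorem isIso_bc_affine [IsAffine Y] [IsAffine Y'] [IsProper f] [IsNoetherian Y] [Flat g]
    (sq : IsPullback g' f' f g) (adj : DCoh.RpushQ f hf ⊣ a) (adj' : DCoh.RpushQ f' hf' ⊣ a')
    (σ : DCoh.RpushQ f hf ⋙ Dual3.LpullQ g hLg ≅ Dual3.LpullQ g' hLg' ⋙ DCoh.RpushQ f' hf')
    (K : DCoh.DQCoh Y) (c : ℤ) (hK : K.obj.IsGE c) : IsIso (bc adj adj' σ K) := by
  rw [Groth.Agent.Dual.H322.BcUniv.isIso_bc_iff_isUniv adj adj' σ K]
  have hu : IsUniv f K.obj (a.obj K).obj (adj.counit.app K).hom := isUniv_of_adj (h := hf) adj K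
  refine Groth.Agent.Dual.H345.AffProper.isUniv_flat_of_isProper sq K.property c hK hu
    (fun N hN => (ObjectProperty.ι (DCoh.IsQCohD (X := Y'))).mapIso (σ.app ⟨N, hN⟩))
    (fun N N' hN hN' ψ => ?_) _ ?_
  · exact congrArg (fun t => t.hom)
      (σ.hom.naturality (ObjectProperty.homMk ψ : (⟨N, hN⟩ : DCoh.DQCoh X) ⟶ ⟨N', hN'⟩))
  · have h1 : (σ.hom.app (a.obj K)).hom ≫ (σ.inv.app (a.obj K)).hom = 𝟙 _ :=
      congrArg (fun t => t.hom) (σ.hom_inv_id_app (a.obj K))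
    change (σ.hom.app (a.obj K)).hom ≫ (σ.inv.app (a.obj K)).hom ≫
      (DCoh.Lpull g).map (adj.counit.app K).hom = _
    rw [← Category.assoc, h1]
    exact Category.id_comp _

end Affine

section Global

lemma flat_of_comp_openImmersion {V V' Y : Scheme.{u}} (h : V' ⟶ V) (j : V ⟶ Y)
    [IsOpenImmersion j] [Flat (h ≫ j)] : Flat h := by
  have : MorphismProperty.HasOfPostcompProperty @Flat @IsOpenImmersion :=
    MorphismProperty.hasOfPostcompProperty_iff_le_diagonal.mpr (fun X Y f hf => by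
      have : IsOpenImmersion f := hf
      change Flat (pullback.diagonal f)
      infer_instance)
  have h2 : IsOpenImmersion j := inferInstance
  have h3 : Flat (h ≫ j) := inferInstance
  exact MorphismProperty.of_postcomp @Flat h j h2 h3

lemma isGE_lpull {Y Y' : Scheme.{u}} (g : Y' ⟶ Y) [Flat g] [DCoh.HasLpull g] (K : DCoh.D Y) (c : ℤ)
    (h : K.IsGE c) : ((DCoh.Lpull g).obj K).IsGE c := by
  rw [DerivedCategory.isGE_iff] at h ⊢
  intro i hi
  exact (Functor.map_isZero (Scheme.Modules.pullback g) (h i hi)).of_iso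
    (Groth.Agent.PerfB.FlatPull.HDLpull g K i)

/-- `Lf^*` commutes with restriction to opens, on `D_QCoh`. -/
lemma nonempty_lpullQ_resQ {W X Y Z : Scheme.{u}} (v : W ⟶ X) (f : X ⟶ Z) (g : W ⟶ Y) (j : Y ⟶ Z)
    [IsOpenImmersion v] [IsOpenImmersion j] [DCoh.HasLpull f] [DCoh.HasLpull g]
    (hf : Dual3.LpullPreservesQCoh f) (hg : Dual3.LpullPreservesQCoh g)
    (h : v ≫ f = g ≫ j) :
    Nonempty (Dual3.LpullQ f hf ⋙ resQ v ≅ resQ j ⋙ Dual3.LpullQ g hg) := by
  obtain ⟨e⟩ := Groth.Agent.PerfB.LpullOpens.nonempty_lpullRestrict v f g j h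
  exact ⟨liftIso e (fun K => Groth.Agent.PerfA.QCohD.isQCohD_restrictD v (hf _ K.property))
    (fun K => hg _ (Groth.Agent.PerfA.QCohD.isQCohD_restrictD j K.property))⟩

open Groth.Agent.Dual.H310.OpenBC in
lemma isLocalization_resQ {U X : Scheme.{u}} (j : U ⟶ X) [IsOpenImmersion j] [QuasiCompact j] :
    (resQ j).IsLocalization ((MorphismProperty.isomorphisms _).inverseImage (resQ j)) := by
  have := Groth.Agent.Dcoh.DerSch.hasRpush j
  have hj : DCoh.RpushPreservesQCoh j := preservesQCoh j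
  have := full_pushQ j hj
  have := faithful_pushQ j hj
  exact (openAdjQ j hj).isLocalization

variable {X Y X' Y' : Scheme.{u}} {f : X ⟶ Y} {g : Y' ⟶ Y} {f' : X' ⟶ Y'} {g' : X' ⟶ X}
variable [DCoh.HasRpush f] [DCoh.HasRpush f']
variable {hf : DCoh.RpushPreservesQCoh f} {hf' : DCoh.RpushPreservesQCoh f'}
variable [DCoh.HasLpull g] [DCoh.HasLpull g'] {hLg : Dual3.LpullPreservesQCoh g}
  {hLg' : Dual3.LpullPreservesQCoh g'}
variable {a : DCoh.DQCoh Y ⥤ DCoh.DQCoh X} {a' : DCoh.DQCoh Y' ⥤ DCoh.DQCoh X'}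

open Groth.Agent.Dual.H310.OpenBC in
/-- The base change map is an isomorphism over the preimages of affine opens of `Y'` lying over affine opens of
`Y`. -/
theorem isIso_resQ_map_bc [IsProper f] [IsNoetherian Y] [IsNoetherian Y'] [Flat g]
    (sq : IsPullback g' f' f g) (adj : DCoh.RpushQ f hf ⊣ a) (adj' : DCoh.RpushQ f' hf' ⊣ a')
    (σ : DCoh.RpushQ f hf ⋙ Dual3.LpullQ g hLg ≅ Dual3.LpullQ g' hLg' ⋙ DCoh.RpushQ f' hf')
    (K : DCoh.DQCoh Y) (c : ℤ) (hK : K.obj.IsGE c)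
    {V V' : Scheme.{u}} [IsAffine V] [IsAffine V'] (j : V ⟶ Y) (i : V' ⟶ Y') [IsOpenImmersion j]
    [IsOpenImmersion i] (h : V' ⟶ V) (w : i ≫ g = h ≫ j) :
    IsIso ((resQ (pullback.fst f' i)).map (bc adj adj' σ K)) := by
  have hpf' : IsProper f' := MorphismProperty.of_isPullback sq inferInstance
  have : IsNoetherian X := isNoetherian_of_finiteType f
  have : IsNoetherian X' := isNoetherian_of_finiteType f'
  have : IsLocallyNoetherian V := isLocallyNoetherian_of_isOpenImmersion j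
  have : IsLocallyNoetherian V' := isLocallyNoetherian_of_isOpenImmersion i
  have : IsNoetherian V := {}
  have : IsNoetherian V' := {}
  let f₀ := pullback.snd f j
  let f₁ := pullback.snd f' i
  have sqj : IsPullback (pullback.fst f j) f₀ f j := IsPullback.of_hasPullback f j
  have sqi : IsPullback (pullback.fst f' i) f₁ f' i := IsPullback.of_hasPullback f' i
  have hpf₀ : IsProper f₀ := MorphismProperty.of_isPullback sqj inferInstance
  have hpf₁ : IsProper f₁ := MorphismProperty.of_isPullback sqi inferInstance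
  have : IsNoetherian (pullback f j) := isNoetherian_of_finiteType f₀
  have : IsNoetherian (pullback f' i) := isNoetherian_of_finiteType f₁
  have sqc : IsPullback (pullback.fst f' i ≫ g') f₁ f (h ≫ j) := by
    rw [← w]
    exact sqi.paste_horiz sq
  let h' : pullback f' i ⟶ pullback f j := sqj.lift (pullback.fst f' i ≫ g') (f₁ ≫ h)
    (by rw [sqc.w, Category.assoc])
  have wh' : pullback.fst f' i ≫ g' = h' ≫ pullback.fst f j := (sqj.lift_fst _ _ _).symm
  have sqh : IsPullback h' f₁ f₀ h := sqc.of_right' sqj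
  have hhflat : Flat h := by
    have h1 : Flat (h ≫ j) := by rw [← w]; infer_instance
    exact flat_of_comp_openImmersion h j
  have := Groth.Agent.Dcoh.DerSch.hasRpush f₀
  have := Groth.Agent.Dcoh.DerSch.hasRpush f₁
  have := Groth.Agent.PerfB.BCSch.hasLpull h
  have := Groth.Agent.PerfB.BCSch.hasLpull h'
  have hf₀ : DCoh.RpushPreservesQCoh f₀ := preservesQCoh f₀
  have hf₁ : DCoh.RpushPreservesQCoh f₁ := preservesQCoh f₁
  have hLh : Dual3.LpullPreservesQCoh h := fun K hK => Groth.Agent.S1054.result h K hK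
  have hLh' : Dual3.LpullPreservesQCoh h' := fun K hK => Groth.Agent.S1054.result h' K hK
  have := isLeftAdjoint_rpushQ f₀ hf₀
  have := isLeftAdjoint_rpushQ f₁ hf₁
  let adj₀ := Adjunction.ofIsLeftAdjoint (DCoh.RpushQ f₀ hf₀)
  let adj₁ := Adjunction.ofIsLeftAdjoint (DCoh.RpushQ f₁ hf₁)
  obtain ⟨σj⟩ := nonempty_rpushQRestrict sqj hf hf₀
  obtain ⟨σi⟩ := nonempty_rpushQRestrict sqi hf' hf₁
  obtain ⟨κ⟩ := nonempty_lpullQ_resQ (pullback.fst f' i) g' h' (pullback.fst f j) hLg' hLh' wh'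
  obtain ⟨κ'⟩ := nonempty_lpullQ_resQ i g h j hLg hLh w
  have : QuasiCompact (pullback.fst f j) := inferInstance
  have := isLocalization_resQ (pullback.fst f j)
  refine Groth.Agent.Dual.H322.BcGlue.isIso_map_bc_of_square adj adj' adj₀ adj₁ σ σj σi κ κ'
    ((MorphismProperty.isomorphisms _).inverseImage (resQ (pullback.fst f j))) K ?_ ?_ ?_
  · exact isIso_bc sqj.w hf hf₀ adj adj₀ σj K c hK
  · exact isIso_bc sqi.w hf' hf₁ adj' adj₁ σi ((Dual3.LpullQ g hLg).obj K) c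
      (isGE_lpull g K.obj c hK)
  · intro σh
    have hK' : ((restrictD j).obj K.obj).IsGE c := Groth.Agent.PerfA.ExactD.isGE_map _ _ _
    exact isIso_bc_affine sqh adj₀ adj₁ σh ((resQ j).obj K) c hK'

/-- **Flat base change for the right adjoint of `Rf_*`** (`f` proper, `Y`, `Y'` Noetherian, `g` flat, `K ∈ D^+_QCoh`),
for any `σ`. -/
theorem isIso_bc_flat [IsProper f] [IsNoetherian Y] [IsNoetherian Y'] [Flat g]
    (sq : IsPullback g' f' f g) (adj : DCoh.RpushQ f hf ⊣ a) (adj' : DCoh.RpushQ f' hf' ⊣ a')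
    (σ : DCoh.RpushQ f hf ⋙ Dual3.LpullQ g hLg ≅ Dual3.LpullQ g' hLg' ⋙ DCoh.RpushQ f' hf')
    (K : DCoh.DQCoh Y) (c : ℤ) (hK : K.obj.IsGE c) : IsIso (bc adj adj' σ K) := by
  apply Groth.Agent.Dual.H322.BcSch.isIso_of_isIso_hom
  refine isIso_of_restrictD _ fun x => ?_
  obtain ⟨A, B, φ, i, j, hi, hj, y, hy, w⟩ :=
    Groth.Agent.PerfB.LpullOpens.exists_affine_chart g (f' x)
  obtain ⟨z, hz, -⟩ := Scheme.Pullback.exists_preimage_pullback x y hy.symm
  refine ⟨pullback f' i, pullback.fst f' i, inferInstance, z, hz, ?_⟩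
  have h1 := isIso_resQ_map_bc sq adj adj' σ K c hK j i (Spec.map φ) w
  exact (inferInstance : IsIso ((ObjectProperty.ι (DCoh.IsQCohD (X := pullback f' i))).map
    ((resQ (pullback.fst f' i)).map (bc adj adj' σ K))))

/-- Functor level flat base change, for any `σ`. -/
theorem nonempty_bc_flat [IsProper f] [IsNoetherian Y] [IsNoetherian Y'] [Flat g]
    (sq : IsPullback g' f' f g) (adj : DCoh.RpushQ f hf ⊣ a) (adj' : DCoh.RpushQ f' hf' ⊣ a')
    (σ : DCoh.RpushQ f hf ⋙ Dual3.LpullQ g hLg ≅ Dual3.LpullQ g' hLg' ⋙ DCoh.RpushQ f' hf') :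
    Nonempty (Dual3.bddι Y ⋙ a ⋙ Dual3.LpullQ g' hLg' ≅ Dual3.bddι Y ⋙ Dual3.LpullQ g hLg ⋙ a') := by
  have : ∀ K, IsIso ((Functor.whiskerLeft (Dual3.bddι Y) (bcNat adj adj' σ)).app K) := by
    rintro ⟨K, n, hn⟩
    exact isIso_bc_flat sq adj adj' σ K n hn
  have := NatIso.isIso_of_isIso_app (Functor.whiskerLeft (Dual3.bddι Y) (bcNat adj adj' σ))
  exact ⟨asIso (Functor.whiskerLeft (Dual3.bddι Y) (bcNat adj adj' σ))⟩

open Groth.Agent.PerfB.BCSch Groth.Agent.PerfB.BCShift Groth.Agent.Dcoh.BCCanon300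
  Groth.Agent.Dual.H345.HomBCX in
variable (hf hf' hLg hLg') in
/-- Flat base change `Lg^* Rf_* ≅ Rf'_* Lg'^*` on `D_QCoh`. -/
theorem nonempty_sigma [QuasiCompact f] [QuasiSeparated f] [Flat g] (sq : IsPullback g' f' f g) :
    Nonempty (DCoh.RpushQ f hf ⋙ Dual3.LpullQ g hLg ≅ Dual3.LpullQ g' hLg' ⋙ DCoh.RpushQ f' hf') := by
  have h : ∀ K : DCoh.DQCoh X, IsIso (bc (lAdj f) (lAdj f') (cIso dPull.{u} sq.w).symm K.obj) :=
    fun K => isIso_bc_of_BC dPull.{u} sq.w (lAdj f) (lAdj f') K.obj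
      (Groth.Agent.PerfB.BCAff.bc_flat sq K.obj K.property)
  exact ⟨NatIso.ofComponents (fun K => ObjectProperty.isoMk _
    (@asIso _ _ _ _ (bc (lAdj f) (lAdj f') (cIso dPull.{u} sq.w).symm K.obj) (h K)))
    (fun {K L} φ => by
      ext1
      exact bc_naturality (lAdj f) (lAdj f') (cIso dPull.{u} sq.w).symm φ.hom)⟩

/-- **Functor level flat base change**: `Lg'^* ∘ a ≅ a' ∘ Lg^*` on `D^+_QCoh(O_Y)`. -/
theorem nonempty_flatBC [IsProper f] [IsNoetherian Y] [IsNoetherian Y'] [Flat g]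
    (sq : IsPullback g' f' f g) (adj : DCoh.RpushQ f hf ⊣ a) (adj' : DCoh.RpushQ f' hf' ⊣ a')
    (hLg : Dual3.LpullPreservesQCoh g) (hLg' : Dual3.LpullPreservesQCoh g') :
    Nonempty (Dual3.bddι Y ⋙ a ⋙ Dual3.LpullQ g' hLg' ≅ Dual3.bddι Y ⋙ Dual3.LpullQ g hLg ⋙ a') := by
  obtain ⟨σ⟩ := nonempty_sigma hf hf' hLg hLg' sq
  exact nonempty_bc_flat sq adj adj' σ

end Global

end Groth.Agent.Dual.H345.FlatBC
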