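import Groth.Agent.Dual.H345.FlatBC
import Groth.Agent.Dual.H310.Indep

/-!
# Flat base change for the upper shriek functor
-/

set_option autoImplicit false

universe u

open CategoryTheory CategoryTheory.Limits AlgebraicGeometry

attribute [local instance] HasDerivedCategory.standard

namespace Groth.Agent.Dual.H345.ShriekFlat

open Groth.Agent.Dual.H310.OpenBC Groth.Agent.Dual.H345.FlatBC

variable {X Y X' Y' : Scheme.{u}} {f : X ⟶ Y} {g : Y' ⟶ Y} {f' : X' ⟶ Y'} {g' : X' ⟶ X}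

/-- The base change of a compactification. -/
theorem exists_baseChange (hsq : IsPullback g' f' f g) (c : DEt.Compactification f) :
    ∃ (c'' : DEt.Compactification f') (gbar : c''.Xbar ⟶ c.Xbar),
      IsPullback gbar c''.fbar c.fbar g ∧ c''.j ≫ gbar = g' ≫ c.j := by
  have h0 : (g' ≫ c.j) ≫ c.fbar = f' ≫ g := by rw [Category.assoc, c.fac, hsq.w]
  have h2 : IsPullback (pullback.fst c.fbar g) (pullback.snd c.fbar g) c.fbar g :=
    IsPullback.of_hasPullback _ _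
  obtain ⟨j', hj', hj''⟩ : ∃ j' : X' ⟶ pullback c.fbar g,
      j' ≫ pullback.fst c.fbar g = g' ≫ c.j ∧ j' ≫ pullback.snd c.fbar g = f' :=
    ⟨pullback.lift (g' ≫ c.j) f' h0, pullback.lift_fst _ _ _, pullback.lift_snd _ _ _⟩
  have h1 : IsPullback g' (j' ≫ pullback.snd c.fbar g) (c.j ≫ c.fbar) g := by
    rw [c.fac, hj'']
    exact hsq
  have h3 := IsPullback.of_bot h1 hj'.symm h2
  have h4 : IsOpenImmersion j' := MorphismProperty.of_isPullback h3 c.isOpenImmersion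
  exact ⟨{ Xbar := pullback c.fbar g, j := j', fbar := pullback.snd c.fbar g,
           isOpenImmersion := h4, isProper := inferInstance, fac := hj'' },
    pullback.fst c.fbar g, h2, hj'⟩

/-- `Lg^*` on `D^+_QCoh`, `g` flat. -/
noncomputable def lpullPlus (g : Y' ⟶ Y) [Flat g] [DCoh.HasLpull g]
    (hLg : Dual3.LpullPreservesQCoh g) :
    (Dual3.IsBddBelowQ Y).FullSubcategory ⥤ (Dual3.IsBddBelowQ Y').FullSubcategory :=
  ObjectProperty.lift _ (Dual3.bddι Y ⋙ Dual3.LpullQ g hLg) (fun K => by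
    obtain ⟨n, hn⟩ := K.property
    exact ⟨n, isGE_lpull g K.obj.obj n hn⟩)

theorem shriekC_flatBaseChange [IsNoetherian Y] [IsNoetherian Y'] [QuasiCompact f']
    (hsq : IsPullback g' f' f g) [Flat g]
    (c : DEt.Compactification f) (c' : DEt.Compactification f')
    [DCoh.HasRpush c.fbar] [DCoh.HasRpush c'.fbar]
    (hc : DCoh.RpushPreservesQCoh c.fbar) (hc' : DCoh.RpushPreservesQCoh c'.fbar)
    (a : DCoh.DQCoh Y ⥤ DCoh.DQCoh c.Xbar) (a' : DCoh.DQCoh Y' ⥤ DCoh.DQCoh c'.Xbar)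
    (adj : DCoh.RpushQ c.fbar hc ⊣ a) (adj' : DCoh.RpushQ c'.fbar hc' ⊣ a')
    [PreservesFiniteLimits (Scheme.Modules.restrictFunctor c.j)]
    [PreservesFiniteLimits (Scheme.Modules.restrictFunctor c'.j)]
    [DCoh.HasLpull g] [DCoh.HasLpull g'] (hLg : Dual3.LpullPreservesQCoh g) :
    Nonempty (Dual3.bddι Y ⋙ Dual3.shriekC c a ⋙ DCoh.Lpull g' ≅
      Dual3.bddι Y ⋙ Dual3.LpullQ g hLg ⋙ Dual3.shriekC c' a') := by
  obtain ⟨c'', gbar, sq'', w''⟩ := exists_baseChange hsq c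
  have hP : IsNoetherian c''.Xbar := isNoetherian_of_finiteType c''.fbar
  have := Groth.Agent.Dcoh.DerSch.hasRpush c''.fbar
  have hc'' : DCoh.RpushPreservesQCoh c''.fbar := preservesQCoh _
  have := isLeftAdjoint_rpushQ c''.fbar hc''
  let adj'' := Adjunction.ofIsLeftAdjoint (DCoh.RpushQ c''.fbar hc'')
  have := Groth.Agent.PerfB.BCSch.hasLpull gbar
  have hLg' : Dual3.LpullPreservesQCoh gbar :=
    fun K hK => Groth.Agent.S1054.result _ K hK
  obtain ⟨e₁⟩ := nonempty_flatBC sq'' adj adj'' hLg hLg'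
  obtain ⟨e₂⟩ := Groth.Agent.Dual.H310.Indep.nonempty_indep c'' c' hc'' hc' _ a' adj'' adj'
  obtain ⟨e₃⟩ := Groth.Agent.PerfB.LpullOpens.nonempty_lpullRestrict c''.j gbar g' c.j w''
  have e₄ : Dual3.bddι Y ⋙ Dual3.shriekC c a ⋙ DCoh.Lpull g' ≅
      (Dual3.bddι Y ⋙ a ⋙ Dual3.LpullQ gbar hLg') ⋙
        ObjectProperty.ι _ ⋙ Groth.Agent.PerfA.Restrict.restrictD c''.j :=
    Functor.isoWhiskerLeft (Dual3.bddι Y ⋙ a ⋙ ObjectProperty.ι _) e₃.symm
  have e₅ : (Dual3.bddι Y ⋙ Dual3.LpullQ g hLg ⋙ (DCoh.RpushQ c''.fbar hc'').rightAdjoint) ⋙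
        ObjectProperty.ι _ ⋙ Groth.Agent.PerfA.Restrict.restrictD c''.j ≅
      Dual3.bddι Y ⋙ Dual3.LpullQ g hLg ⋙ Dual3.shriekC c' a' :=
    Functor.isoWhiskerLeft (lpullPlus g hLg) (Functor.isoWhiskerRight e₂ (ObjectProperty.ι _))
  exact ⟨e₄ ≪≫ Functor.isoWhiskerRight e₁ _ ≪≫ e₅⟩

end Groth.Agent.Dual.H345.ShriekFlat
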